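import Mathlib
import Cfsg.Agent.BW.B
import Cfsg.Agent.H23.Fpf3
import Cfsg.Agent.Transfer.Focal

/-!
# Fixed points of an automorphism of odd prime order on a solvable group, I
-/

set_option autoImplicit false

namespace Cfsg.Agent.BW

open Cfsg.Agent.BG Cfsg.Agent.BG.Amb Cfsg.Agent.H23.HH
open scoped commutatorElement Pointwise
open Subgroup (zpowers)

universe u

section Defs

variable {G G' : Type*} [Group G] [Group G'] {H K L : Subgroup G} {x h : G}

/-- The subgroup generated by the commutators of `h` with the powers of `x`. -/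
def El (x h : G) : Subgroup G := Subgroup.closure (Set.range fun i : ℕ => ⁅h⁻¹, x ^ i⁆)

/-- The subgroup generated by the fixed points of `x` in the subgroups `El x h`. -/
def Dl (H : Subgroup G) (x : G) : Subgroup G := ⨆ h ∈ H, El x h ⊓ 𝐂(zpowers x)

theorem mem_El (x h : G) (i : ℕ) : ⁅h⁻¹, x ^ i⁆ ∈ El x h := Subgroup.subset_closure ⟨i, rfl⟩

theorem El_le_iff : El x h ≤ L ↔ ∀ i : ℕ, ⁅h⁻¹, x ^ i⁆ ∈ L := by
  rw [El, Subgroup.closure_le, Set.range_subset_iff]; rfl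

theorem El_le (hh : h ∈ K) : El x h ≤ ⁅K, zpowers x⁆ := El_le_iff.2 fun i =>
  Subgroup.commutator_mem_commutator (K.inv_mem hh) (Subgroup.npow_mem_zpowers x i)

theorem map_El (f : G →* G') : (El x h).map f = El (f x) (f h) := by
  rw [El, MonoidHom.map_closure, ← Set.range_comp, El]
  congr 2
  ext i
  simp [map_commutatorElement]

theorem norm_El [Finite G] : zpowers x ≤ 𝐍(El x h) := by
  refine Subgroup.zpowers_le.2 (Subgroup.mem_normalizer_fintype fun n hn => ?_)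
  have : El x h ≤ (El x h).comap (MulAut.conj x).toMonoidHom := El_le_iff.2 fun i => by
    change x * ⁅h⁻¹, x ^ i⁆ * x⁻¹ ∈ El x h
    rw [show x * ⁅h⁻¹, x ^ i⁆ * x⁻¹ = ⁅h⁻¹, x ^ 1⁆⁻¹ * ⁅h⁻¹, x ^ (i + 1)⁆ by
      simp only [commutatorElement_def]; group]
    exact (El x h).mul_mem ((El x h).inv_mem (mem_El x h 1)) (mem_El x h (i + 1))
  exact this hn

theorem comm_le_of_El [Finite G] (hL : ∀ h ∈ H, El x h ≤ L) : ⁅H, zpowers x⁆ ≤ L :=
  Subgroup.commutator_le.2 fun a ha b hb => by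
    obtain ⟨i, rfl⟩ := (mem_powers_iff_mem_zpowers.2 hb : b ∈ Submonoid.powers x)
    simpa using hL _ (H.inv_mem ha) (mem_El x a⁻¹ i)

theorem le_Dl (hh : h ∈ H) : El x h ⊓ 𝐂(zpowers x) ≤ Dl H x :=
  le_iSup₂_of_le (f := fun h (_ : h ∈ H) => El x h ⊓ 𝐂(zpowers x)) h hh le_rfl

theorem Dl_le (hn : zpowers x ≤ 𝐍(H)) : Dl H x ≤ H ⊓ 𝐂(zpowers x) :=
  iSup₂_le fun _ hh => inf_le_inf_right _ ((El_le hh).trans (comm_le_left hn))

theorem Dl_mono (hle : K ≤ H) : Dl K x ≤ Dl H x := iSup₂_le fun _ hh => le_Dl (hle hh)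

theorem map_cent_le (f : G →* G') : (𝐂(zpowers x)).map f ≤ 𝐂(zpowers (f x)) := by
  rintro _ ⟨c, hc, rfl⟩
  rw [cent_zpowers, mem_cent1, ← map_mul, ← map_mul]
  rw [SetLike.mem_coe, cent_zpowers, mem_cent1] at hc
  rw [hc]

theorem map_Dl_le (f : G →* G') : (Dl H x).map f ≤ Dl (H.map f) (f x) := by
  rw [Subgroup.map_le_iff_le_comap]
  refine iSup₂_le fun h hh => Subgroup.map_le_iff_le_comap.1 ?_
  refine le_trans ?_ (le_Dl (Subgroup.mem_map_of_mem f hh))
  exact le_inf ((Subgroup.map_mono inf_le_left).trans (map_El f).le)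
    ((Subgroup.map_mono inf_le_right).trans (map_cent_le f))

theorem le_map_Dl [Finite G] (f : G →* G') (hn : zpowers x ≤ 𝐍(H))
    (hc : (Nat.card H).Coprime (Nat.card (zpowers x))) :
    Dl (H.map f) (f x) ≤ (Dl H x).map f := by
  refine iSup₂_le ?_
  rintro _ ⟨h, hh, rfl⟩
  rw [← map_El, ← MonoidHom.map_zpowers, map_inf_cent f norm_El (hc.coprime_dvd_left
    (Subgroup.card_dvd_of_le ((El_le hh).trans (comm_le_left hn))))
    (Or.inl (solvable_of_comm inferInstance))]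
  exact Subgroup.map_mono (le_Dl hh)

theorem norm_Dl [Finite G] : H ⊓ 𝐂(zpowers x) ≤ 𝐍(Dl H x) := by
  rintro c ⟨hc, hc'⟩
  refine Subgroup.mem_normalizer_fintype fun n hn => ?_
  have h1 := map_Dl_le (H := H) (x := x) (MulAut.conj c).toMonoidHom ⟨n, hn, rfl⟩
  have h2 : (MulAut.conj c).toMonoidHom x = x := by
    change c * x * c⁻¹ = x
    rw [← mem_cent.1 hc' x (Subgroup.mem_zpowers x), mul_inv_cancel_right]
  rw [h2] at h1
  refine Dl_mono ?_ h1
  rintro _ ⟨y, hy, rfl⟩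
  exact H.mul_mem (H.mul_mem hc hy) (H.inv_mem hc)

end Defs

variable {G : Type u} [Group G] [Finite G] {H K V : Subgroup G} {x : G} {p : ℕ}

/-- A minimal counterexample. -/
structure Cx (p : ℕ) (H : Subgroup G) (x : G) : Prop where
  prime : p.Prime
  odd : p ≠ 2
  pow : x ^ p = 1
  normal : H.Normal
  solv : Group.IsSolvable H
  cop : (Nat.card H).Coprime p
  top : H ⊔ zpowers x = ⊤
  comm : ⁅H, zpowers x⁆ = H
  nle : ¬ H ⊓ 𝐂(zpowers x) ≤ Dl H x
  sub : ∀ K < H, zpowers x ≤ 𝐍(K) → ⁅K, zpowers x⁆ ⊓ 𝐂(zpowers x) ≤ Dl H x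
  quo : ∀ V : Subgroup G, V.Normal → V ≠ ⊥ → V ≤ H →
    H ⊓ 𝐂(zpowers x) ≤ Dl H x ⊔ (V ⊓ 𝐂(zpowers x))

namespace Cx

variable (c : Cx p H x)
include c

theorem normal_of (h1 : H ≤ 𝐍(K)) (h2 : zpowers x ≤ 𝐍(K)) : K.Normal :=
  normal_of_top_le (c.top ▸ sup_le h1 h2)

theorem nH : zpowers x ≤ 𝐍(H) := have := c.normal; Subgroup.le_normalizer_of_normal

theorem cop' (h : K ≤ H) : (Nat.card K).Coprime (Nat.card (zpowers x)) :=
  (c.cop.coprime_dvd_left (Subgroup.card_dvd_of_le h)).coprime_dvd_right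
    (Nat.card_zpowers x ▸ orderOf_dvd_of_pow_eq_one c.pow)

theorem ne_bot : H ≠ ⊥ := fun h => c.nle (inf_le_left.trans (h ▸ bot_le))

theorem eq_bot (hV : V.Normal) (hle : V ≤ H) (h : V ⊓ 𝐂(zpowers x) ≤ Dl H x) : V = ⊥ := by
  by_contra hne
  exact c.nle ((c.quo V hV hne hle).trans (sup_le le_rfl h))

theorem split (hK : K ≤ H) (hn : zpowers x ≤ 𝐍(K)) : ⁅K, zpowers x⁆ ⊔ (K ⊓ 𝐂(zpowers x)) = K :=
  coprime_comm_sup_cent hn (c.cop' hK) (Or.inl (solvable_of_comm inferInstance))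

theorem inf_center : Dl H x ⊓ Subgroup.center G = ⊥ :=
  c.eq_bot ⟨fun n hn g => by
    rwa [Subgroup.mem_center_iff.1 hn.2 g, mul_inv_cancel_right]⟩
    (inf_le_left.trans ((Dl_le c.nH).trans inf_le_left)) (inf_le_left.trans inf_le_left)

theorem sub' (hK : K < H) (hn : zpowers x ≤ 𝐍(K)) :
    ((Dl H x ⊓ K) ⊔ ⁅K, zpowers x⁆) ⊓ 𝐂(zpowers x) ≤ Dl H x := by
  rw [sup_inf_assoc_of_le' (inf_le_left.trans ((Dl_le c.nH).trans inf_le_right))
    (inf_le_right.trans (Subgroup.normalizer_commutator_ge_left _ _))]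
  exact sup_le inf_le_left (c.sub K hK hn)

theorem der_cent : ⁅H ⊓ 𝐂(zpowers x), H ⊓ 𝐂(zpowers x)⁆ ≤ Dl H x := by
  have := c.normal
  obtain ⟨V, q, h1, h2, h3, -, h5, -⟩ := Core.exists_minimal_normal_elementary_le H c.solv c.ne_bot
  have := h5.1
  exact (der_mono (c.quo V h1 h2 h3)).trans (der_sup_le_of_comm
    ((inf_le_inf_right _ h3).trans norm_Dl) (comm_mono h5.1 inf_le_left))

theorem der_sub (hK : K < H) (hn : zpowers x ≤ 𝐍(K)) : ⁅K, K⁆ ⊓ 𝐂(zpowers x) ≤ Dl H x := by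
  refine le_trans (inf_le_inf_right _ ?_) (c.sub' hK hn)
  conv_lhs => rw [← c.split hK.le hn]
  refine (der_sup_le_sup_der (inf_le_left.trans
    (Subgroup.normalizer_commutator_ge_left _ _))).trans (sup_le le_sup_right ?_)
  exact le_sup_of_le_left (le_inf ((der_mono (inf_le_inf_right _ hK.le)).trans c.der_cent)
    ((der_le _).trans inf_le_left))

theorem center_le : H ⊓ 𝐂(H) ≤ Subgroup.center G := by
  have := c.normal
  have hn : zpowers x ≤ 𝐍(H ⊓ 𝐂(H)) := Subgroup.le_normalizer_of_normal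
  have h1 : ⁅H ⊓ 𝐂(H), zpowers x⁆ = ⊥ := c.eq_bot (c.normal_of
    (le_norm_of_le_cent (le_cent_symm ((comm_le_left hn).trans inf_le_right)))
    (Subgroup.normalizer_commutator_ge_right _ _)) ((comm_le_left hn).trans inf_le_left) (by
      rw [coprime_abelian_comm_inf_cent (comm_of_le_cent (inf_le_right.trans (cent_anti inf_le_left)))
        hn (c.cop' inf_le_left)]
      exact bot_le)
  rw [← Subgroup.centralizer_univ, ← Subgroup.coe_top, ← c.top]
  exact le_cent_sup inf_le_right (le_cent_iff_comm_eq_bot.2 h1)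

theorem cent_le_der : H ⊓ 𝐂(zpowers x) ≤ ⁅H, H⁆ := by
  have := c.normal
  set π := QuotientGroup.mk' ⁅H, H⁆
  have h1 : IsMulCommutative (H.map π) := der_eq_bot_iff.1 (by
    rw [← Subgroup.map_commutator, Subgroup.map_eq_bot_iff, QuotientGroup.ker_mk'])
  have h2 := coprime_abelian_comm_inf_cent (A := (zpowers x).map π) h1
    ((Subgroup.map_mono c.nH).trans (Subgroup.le_normalizer_map π))
    (((c.cop' le_rfl).coprime_dvd_left (Subgroup.card_map_dvd _ _)).coprime_dvd_right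
      (Subgroup.card_map_dvd _ _))
  rw [← Subgroup.map_commutator, c.comm, MonoidHom.map_zpowers] at h2
  rw [← QuotientGroup.ker_mk' ⁅H, H⁆, ← Subgroup.map_eq_bot_iff, ← le_bot_iff, ← h2]
  exact le_inf (Subgroup.map_mono inf_le_left)
    ((Subgroup.map_mono inf_le_right).trans (map_cent_le π))

theorem isPGroup_of_central {q : ℕ} [Fact q.Prime] (hV : IsPGroup q V) (hne : V ≠ ⊥)
    (hle : V ≤ H ⊓ 𝐂(H)) : IsPGroup q H := by
  obtain ⟨Q, hQ, hn⟩ := Core.exists_invariant_isSylowOf _ _ c.nH (c.cop' le_rfl).symm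
    (Or.inr c.solv) q
  rcases hQ.1.eq_or_lt with rfl | hlt
  · exact hQ.2.1
  refine absurd (le_bot_iff.1 fun z hz => ?_) hne
  have hz1 := c.center_le (hle hz)
  have hz2 : z ∈ 𝐂(zpowers x) := mem_cent.2 fun g _ => Subgroup.mem_center_iff.1 hz1 g
  have hzQ : z ∈ Q := Core.IsSylowOf.normal_le hQ hV (hle.trans inf_le_left)
    (le_norm_of_le_cent (le_cent_symm (hle.trans inf_le_right))) hz
  have h1 := Transfer.inf_commutator_inf_center_le (H := Q.subgroupOf H)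
    (Core.IsSylowOf.toSylow hQ).card_coprime_index (x := ⟨z, (hle hz).1⟩) ⟨⟨hzQ, by
      have := c.cent_le_der ⟨(hle hz).1, hz2⟩
      rw [← Subgroup.map_subtype_commutator] at this
      obtain ⟨y, hy, e⟩ := this
      exact (Subtype.ext e : y = ⟨z, _⟩) ▸ hy⟩,
      Subgroup.mem_center_iff.2 fun g => Subtype.ext (Subgroup.mem_center_iff.1 hz1 g)⟩
  have h2 := Subgroup.mem_map_of_mem H.subtype h1
  rw [Subgroup.map_commutator, map_subtype_subgroupOf hQ.1] at h2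
  rw [← c.inf_center]
  exact ⟨c.der_sub hlt hn ⟨h2, hz2⟩, hz1⟩

end Cx

end Cfsg.Agent.BW
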