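import Mathlib
import Cfsg.Agent.BW.E

/-!
# Fixed points of an automorphism of odd prime order on a solvable group, II

The case of a group of prime power order.
-/

set_option autoImplicit false

namespace Cfsg.Agent.BW

open Cfsg.Agent.BG Cfsg.Agent.BG.Amb Cfsg.Agent.H23.HH
open scoped commutatorElement Pointwise
open Subgroup (zpowers center)

universe u

section Elt

variable {G : Type*} [Group G] {H L : Subgroup G} {a b d g k : G}

theorem cm_mul_left (h : ⁅b, d⁆ ∈ center G) : ⁅a * b, d⁆ = ⁅a, d⁆ * ⁅b, d⁆ := by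
  rw [show ⁅a * b, d⁆ = a * ⁅b, d⁆ * a⁻¹ * ⁅a, d⁆ by simp only [commutatorElement_def]; group,
    Subgroup.mem_center_iff.1 h a, mul_inv_cancel_right, Subgroup.mem_center_iff.1 h]

theorem cm_mul_right (h : ⁅a, d⁆ ∈ center G) : ⁅a, b * d⁆ = ⁅a, b⁆ * ⁅a, d⁆ := by
  rw [show ⁅a, b * d⁆ = ⁅a, b⁆ * (b * ⁅a, d⁆ * b⁻¹) by simp only [commutatorElement_def]; group,
    Subgroup.mem_center_iff.1 h b, mul_inv_cancel_right]

theorem cm_conj (h : ⁅a, d⁆ ∈ center G) (g : G) : ⁅g * a * g⁻¹, g * d * g⁻¹⁆ = ⁅a, d⁆ := by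
  rw [show ⁅g * a * g⁻¹, g * d * g⁻¹⁆ = g * ⁅a, d⁆ * g⁻¹ by
    simp only [commutatorElement_def]; group, Subgroup.mem_center_iff.1 h g, mul_inv_cancel_right]

theorem cm_center_left (h : a ∈ center G) : ⁅a * b, d⁆ = ⁅b, d⁆ := by
  rw [show ⁅a * b, d⁆ = a * (b * d * b⁻¹) * a⁻¹ * d⁻¹ by simp only [commutatorElement_def]; group,
    ← Subgroup.mem_center_iff.1 h, mul_inv_cancel_right, commutatorElement_def]

theorem cm_center_right (h : a ∈ center G) : ⁅d, a * b⁆ = ⁅d, b⁆ := by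
  rw [← commutatorElement_inv, cm_center_left h, commutatorElement_inv]

theorem cm_swap (h : ⁅a, d⁆ ∈ center G) : ⁅d, a⁆ ∈ center G :=
  commutatorElement_inv a d ▸ (center G).inv_mem h

/-- The elements whose commutators with `H` are central. -/
def Zt (H : Subgroup G) : Subgroup G where
  carrier := {k | ∀ y ∈ H, ⁅k, y⁆ ∈ center G}
  one_mem' := fun y _ => by simp
  mul_mem' := fun ha hb y hy => cm_mul_left (hb y hy) ▸ (center G).mul_mem (ha y hy) (hb y hy)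
  inv_mem' := fun {a} ha y hy => by
    rw [show ⁅a⁻¹, y⁆ = a⁻¹ * ⁅a, y⁆⁻¹ * a⁻¹⁻¹ by simp only [commutatorElement_def]; group]
    exact Subgroup.Normal.conj_mem inferInstance _ ((center G).inv_mem (ha y hy)) _

theorem Zt_normal [hH : H.Normal] : (Zt H).Normal := ⟨fun a ha g y hy => by
  have h := ha _ (hH.conj_mem' y hy g)
  rw [← cm_conj h g, show g * (g⁻¹ * y * g) * g⁻¹ = y by group] at h
  exact h⟩

theorem comm_le_of_gen [Finite G] [hH : H.Normal] (h : ∀ y ∈ H, ⁅y⁻¹, g⁆ ∈ L) :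
    ⁅H, zpowers g⁆ ≤ L := by
  refine comm_le_of_El fun y hy => El_le_iff.2 fun i => ?_
  induction i with
  | zero => simp
  | succ i ih =>
    rw [show ⁅y⁻¹, g ^ (i + 1)⁆ = ⁅y⁻¹, g ^ i⁆ * ⁅(g ^ i * y * (g ^ i)⁻¹)⁻¹, g⁆ by
      simp only [commutatorElement_def]; group]
    exact L.mul_mem ih (h _ (hH.conj_mem y hy _))

theorem mem_cent_of_Zt [Finite G] [hH : H.Normal] (hg : ⁅H, zpowers g⁆ = H) (hk : k ∈ Zt H)
    (h : ⁅k⁻¹, g⁆ ∈ 𝐂(H)) : k ∈ 𝐂(H) := by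
  rw [← le_cent1_iff, ← hg]
  refine comm_le_of_gen fun y hy => mem_cent1_comm.1 (mem_cent1_iff_commute.2 ?_)
  have h1 : ∀ y ∈ H, ⁅g * k * g⁻¹, y⁆ = ⁅k, y⁆ := fun y hy => by
    have h2 : ⁅⁅k⁻¹, g⁆, y⁆ = 1 := commutatorElement_eq_one_iff_mul_comm.2 (mem_cent.1 h y hy).symm
    rw [show g * k * g⁻¹ = k * ⁅k⁻¹, g⁆ by simp only [commutatorElement_def]; group,
      cm_mul_left (h2 ▸ (center G).one_mem), h2, mul_one]
  rw [← commutatorElement_eq_one_iff_commute,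
    show ⁅y⁻¹, g⁆ = y⁻¹ * (g * y * g⁻¹) by simp only [commutatorElement_def]; group,
    cm_mul_right (hk _ (hH.conj_mem y hy g)), ← h1 _ (hH.conj_mem y hy g), cm_conj (hk y hy),
    ← cm_mul_right (hk y hy), inv_mul_cancel, commutatorElement_one_right]

end Elt

variable {G : Type u} [Group G] [Finite G] {H K V : Subgroup G} {x : G} {p : ℕ}

namespace Cx

variable (c : Cx p H x)
include c

theorem der_lt : ⁅H, H⁆ < H := Amb.der_lt c.solv c.ne_bot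

theorem comm_El {h : G} (hh : h ∈ H) (i j : ℕ) :
    ⁅⁅h⁻¹, x ^ i⁆, ⁅h⁻¹, x ^ j⁆⁆ ∈ (Dl H x ⊓ ⁅H, H⁆) ⊔ ⁅⁅H, H⁆, zpowers x⁆ := by
  have h1 : El x h ≤ H := (El_le hh).trans (comm_le_left c.nH)
  have h2 := c.split ((der_le _).trans h1) (le_norm_comm norm_El norm_El)
  refine (?_ : ⁅El x h, El x h⁆ ≤ _) (Subgroup.commutator_mem_commutator (mem_El x h i) (mem_El x h j))
  rw [← h2]
  exact sup_le (le_sup_of_le_right (Subgroup.commutator_mono (der_mono h1) le_rfl))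
    (le_sup_of_le_left (le_inf ((inf_le_inf_right _ (der_le _)).trans (le_Dl hh))
      (inf_le_left.trans (der_mono h1))))

theorem one_of_center {z : G} (h : z ∈ (Dl H x ⊓ ⁅H, H⁆) ⊔ ⁅⁅H, H⁆, zpowers x⁆)
    (hz : z ∈ center G) : z = 1 := by
  rw [← Subgroup.mem_bot, ← c.inf_center]
  exact ⟨c.sub' c.der_lt (le_norm_comm c.nH c.nH)
    ⟨h, mem_cent.2 fun g _ => Subgroup.mem_center_iff.1 hz g⟩, hz⟩

theorem x_ne_one : x ≠ 1 := fun h => c.ne_bot (by rw [← c.comm, h]; simp)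

theorem orderOf_eq : orderOf x = p := have := Fact.mk c.prime; orderOf_eq_prime c.pow c.x_ne_one

theorem zpowers_sq : zpowers (x ^ 2) = zpowers x := by
  refine le_antisymm (Subgroup.zpowers_le.2 (Subgroup.npow_mem_zpowers x 2))
    (Subgroup.zpowers_le.2 ?_)
  exact mem_zpowers_pow_iff.2 (by
    rw [c.orderOf_eq]
    exact (Nat.coprime_primes Nat.prime_two c.prime).2 c.odd.symm)

theorem key {k y : G} (hk : k ∈ H ⊓ Zt H) (hy : y ∈ H) :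
    ⁅⁅y⁻¹, x ^ 1⁆, ⁅k⁻¹, x ^ 2⁆⁆ * ⁅⁅k⁻¹, x ^ 1⁆, ⁅y⁻¹, x ^ 2⁆⁆ = 1 := by
  have := c.normal
  have := Zt_normal (H := H)
  have ha : ∀ i : ℕ, ⁅y⁻¹, x ^ i⁆ ∈ H := fun i =>
    (El_le hy).trans (comm_le_left c.nH) (mem_El x y i)
  have hb : ∀ i : ℕ, ⁅k⁻¹, x ^ i⁆ ∈ H ⊓ Zt H := fun i =>
    (El_le hk).trans (comm_le_left Subgroup.le_normalizer_of_normal) (mem_El x k i)
  have hz : ∀ i : ℕ, ⁅k⁻¹, ⁅y⁻¹, x ^ i⁆⁆ ∈ center G := fun i => (Zt H).inv_mem hk.2 _ (ha i)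
  have e : ∀ i : ℕ, ⁅(y * k)⁻¹, x ^ i⁆ = ⁅k⁻¹, ⁅y⁻¹, x ^ i⁆⁆ * (⁅y⁻¹, x ^ i⁆ * ⁅k⁻¹, x ^ i⁆) :=
    fun i => by simp only [commutatorElement_def]; group
  have h1 := c.comm_El (H.mul_mem hy hk.1) 1 2
  have h2 := c.one_of_center (c.comm_El hk.1 1 2) ((hb 1).2 _ (hb 2).1)
  rw [e, e, cm_center_left (hz 1), cm_center_right (hz 2),
    cm_mul_left ((hb 1).2 _ (H.mul_mem (ha 2) (hb 2).1)),
    cm_mul_right (cm_swap ((hb 2).2 _ (ha 1))), cm_mul_right ((hb 1).2 _ (hb 2).1), h2, mul_one,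
    mul_assoc, Subgroup.mul_mem_cancel_left _ (c.comm_El hy 1 2)] at h1
  exact c.one_of_center h1 ((center G).mul_mem (cm_swap ((hb 2).2 _ (ha 1))) ((hb 1).2 _ (ha 2)))

theorem Zt_le : H ⊓ Zt H ≤ 𝐂(H) := by
  intro k hk
  have hH := c.normal
  have hZ := Zt_normal (H := H)
  have hb : ⁅k⁻¹, x⁆ ∈ H ⊓ Zt H := comm_le_left (K := zpowers x) Subgroup.le_normalizer_of_normal
    (Subgroup.commutator_mem_commutator ((H ⊓ Zt H).inv_mem hk) (Subgroup.mem_zpowers x))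
  refine mem_cent_of_Zt c.comm hk.2 (mem_cent_of_Zt (g := x ^ 2) (c.zpowers_sq ▸ c.comm) hb.2 ?_)
  have key := fun y hy => c.key hk (y := y) hy
  rw [show ⁅k⁻¹, x ^ 2⁆ = ⁅k⁻¹, x⁆ * (x * ⁅k⁻¹, x⁆ * x⁻¹) by
    simp only [commutatorElement_def, pow_two]; group, pow_one] at key
  generalize ⁅k⁻¹, x⁆ = b at hb key
  rw [show ⁅b⁻¹, x ^ 2⁆ = x * ((x⁻¹ * b * x⁻¹⁻¹)⁻¹ * (x * b * x⁻¹)) * x⁻¹ by
    simp only [commutatorElement_def, pow_two]; group]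
  refine Subgroup.Normal.conj_mem inferInstance _ ?_ x
  rw [← le_cent1_iff, ← c.comm]
  refine comm_le_of_gen fun y hy => mem_cent1.2 ?_
  have ha : ⁅y⁻¹, x⁆ ∈ H := comm_le_left c.nH
    (Subgroup.commutator_mem_commutator (H.inv_mem hy) (Subgroup.mem_zpowers x))
  have h1 := key y hy
  rw [show ⁅y⁻¹, x ^ 2⁆ = ⁅y⁻¹, x⁆ * (x * ⁅y⁻¹, x⁆ * x⁻¹) by
    simp only [commutatorElement_def, pow_two]; group] at h1
  generalize ⁅y⁻¹, x⁆ = a at ha h1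
  have h2 := hZ.conj_mem _ hb.2 x a ha
  have h3 := hZ.conj_mem _ hb.2 x⁻¹ a ha
  rw [cm_mul_right (cm_swap h2), cm_mul_right (hb.2 _ (hH.conj_mem a ha x)), mul_assoc,
    ← mul_assoc ⁅a, x * b * x⁻¹⁆, ← Subgroup.mem_center_iff.1 (cm_swap h2), ← mul_assoc,
    ← mul_assoc, ← commutatorElement_inv a b, mul_inv_cancel, one_mul,
    ← commutatorElement_inv (x * b * x⁻¹), inv_mul_eq_one,
    show ⁅b, x * a * x⁻¹⁆ = ⁅x * (x⁻¹ * b * x⁻¹⁻¹) * x⁻¹, x * a * x⁻¹⁆ by congr 1; group,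
    cm_conj h3] at h1
  generalize x * b * x⁻¹ = s at h1
  generalize x⁻¹ * b * x⁻¹⁻¹ = t at h1
  rw [commutatorElement_def, commutatorElement_def, mul_left_inj] at h1
  calc a * (t⁻¹ * s) = t⁻¹ * (t * a * t⁻¹) * s := by group
    _ = t⁻¹ * s * a := by rw [← h1]; group

theorem not_isPGroup {q : ℕ} [Fact q.Prime] : ¬ IsPGroup q H := fun hq => by
  have hH := c.normal
  set π := QuotientGroup.mk' (center G)
  have h1 : H.map π ≠ ⊥ := fun h => c.ne_bot (by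
    rw [Subgroup.map_eq_bot_iff, QuotientGroup.ker_mk'] at h
    rw [← c.comm, ← le_cent_iff_comm_eq_bot]
    exact fun y hy => mem_cent.2 fun g _ => Subgroup.mem_center_iff.1 (h hy) g)
  obtain ⟨_, ⟨⟨k, hk, rfl⟩, hk'⟩, hne⟩ := exists_mem_ne_one
    (Core.inf_centralizer_ne_bot_of_isPGroup (hq.map π) (hq.map π) Subgroup.le_normalizer h1)
  refine hne ((QuotientGroup.eq_one_iff k).2 (c.center_le ⟨hk, c.Zt_le ⟨hk, fun y hy => ?_⟩⟩))
  rw [← QuotientGroup.eq_one_iff]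
  change π ⁅k, y⁆ = 1
  rw [map_commutatorElement, commutatorElement_eq_one_iff_mul_comm]
  exact (mem_cent.1 hk' _ (Subgroup.mem_map_of_mem π hy)).symm

end Cx

end Cfsg.Agent.BW
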