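import Mathlib
import Cfsg.Agent.BW.F

/-!
# Fixed points of an automorphism of odd prime order on a solvable group, III

The case of a noncentral minimal normal subgroup.
-/

set_option autoImplicit false

namespace Cfsg.Agent.BW

open Cfsg.Agent.BG Cfsg.Agent.BG.Amb Cfsg.Agent.H23.HH
open scoped commutatorElement Pointwise
open Subgroup (zpowers center)

universe u

/-- The elements normalizing `W` and centralizing `V` modulo `W`. -/
def Cm {G : Type*} [Group G] (V W : Subgroup G) : Subgroup G where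
  carrier := {g | g ∈ 𝐍(W) ∧ ∀ v ∈ V, ⁅v, g⁆ ∈ W}
  one_mem' := ⟨one_mem _, fun v _ => by simp⟩
  mul_mem' := fun {a b} ha hb => ⟨mul_mem ha.1 hb.1, fun v hv => by
    rw [show ⁅v, a * b⁆ = ⁅v, a⁆ * (a * ⁅v, b⁆ * a⁻¹) by simp only [commutatorElement_def]; group]
    exact W.mul_mem (ha.2 v hv) (conj_mem_of_le_norm le_rfl ha.1 (hb.2 v hv))⟩
  inv_mem' := fun {a} ha => ⟨inv_mem ha.1, fun v hv => by
    rw [show ⁅v, a⁻¹⁆ = a⁻¹ * ⁅v, a⁆⁻¹ * a by simp only [commutatorElement_def]; group]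
    exact inv_conj_mem_of_le_norm le_rfl ha.1 (W.inv_mem (ha.2 v hv))⟩

theorem le_Cm {G : Type*} [Group G] {V W K : Subgroup G} (hW : W ≤ V) :
    K ≤ Cm V W ↔ ⁅V, K⁆ ≤ W :=
  ⟨fun h => Subgroup.commutator_le.2 fun v hv _ hk => (h hk).2 v hv, fun h _ hk =>
    ⟨le_norm_of_comm_le_left ((Subgroup.commutator_mono hW le_rfl).trans h) hk,
      fun _ hv => h (Subgroup.commutator_mem_commutator hv hk)⟩⟩

variable {G : Type u} [Group G] [Finite G] {H K V N X : Subgroup G} {x h : G} {p q : ℕ}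

/-- A minimal counterexample with a noncentral minimal normal subgroup. -/
structure CxB (p q : ℕ) (H V : Subgroup G) (x : G) : Prop extends Cx p H x where
  qp : q.Prime
  nV : V.Normal
  ne : V ≠ ⊥
  le : V ≤ H
  el : IsElementaryAbelian q V
  min : ∀ M : Subgroup G, M.Normal → M ≤ V → M = ⊥ ∨ M = V
  nc : ¬ V ≤ 𝐂(H)

namespace CxB

variable (c : CxB p q H V x)
include c

theorem norm (K : Subgroup G) : K ≤ 𝐍(V) := have := c.nV; Subgroup.le_normalizer_of_normal

theorem W_le : (Dl H x ⊓ V) ⊔ ⁅V, zpowers x⁆ ≤ V := sup_le inf_le_right (comm_le_left (c.norm _))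

theorem not_le_W : ¬ V ≤ (Dl H x ⊓ V) ⊔ ⁅V, zpowers x⁆ := fun h => c.ne (c.eq_bot c.nV c.le (by
  refine (inf_le_inf_right _ h).trans ?_
  rw [sup_inf_assoc_of_le' (inf_le_left.trans ((Dl_le c.nH).trans inf_le_right))
    (inf_le_right.trans (Subgroup.normalizer_commutator_ge_left _ _)),
    coprime_abelian_comm_inf_cent c.el.1 (c.norm _) (c.cop' c.le), sup_bot_eq]
  exact inf_le_left))

theorem cent_le : H ⊓ 𝐂(zpowers x) ≤ Cm V ((Dl H x ⊓ V) ⊔ ⁅V, zpowers x⁆) := by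
  rw [le_Cm c.W_le]
  conv_lhs => rw [← c.split c.le (c.norm _)]
  refine comm_sup_left_le ((c.split c.le (c.norm _)).le.trans
    (le_norm_of_le_cent (le_cent_of_comm c.el.1 le_rfl c.W_le))) ?_ ?_
  · exact le_sup_of_le_right (comm_le_left (le_norm_comm (c.norm _)
      (inf_le_right.trans (cent_le_norm _))))
  · exact le_sup_of_le_left (le_inf ((Subgroup.commutator_mono (inf_le_inf_right _ c.le)
      le_rfl).trans c.der_cent) (comm_le_of_left_le inf_le_left (c.norm _)))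

theorem le_of_lt (hV : V ≤ K) (hK : K < H) (hn : zpowers x ≤ 𝐍(K)) :
    K ≤ Cm V ((Dl H x ⊓ V) ⊔ ⁅V, zpowers x⁆) := by
  rw [← c.split hK.le hn]
  refine sup_le ?_ ((inf_le_inf_right _ hK.le).trans c.cent_le)
  rw [le_Cm c.W_le]
  refine (le_inf (comm_le_left (c.norm _)) (comm_le_right
    (hV.trans (Subgroup.normalizer_commutator_ge_left _ _)))).trans ?_
  rw [← c.split (inf_le_left.trans c.le)
    (le_norm_inf (c.norm _) (Subgroup.normalizer_commutator_ge_right K _))]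
  exact sup_le (le_sup_of_le_right (Subgroup.commutator_mono inf_le_left le_rfl))
    (le_sup_of_le_left (le_inf ((inf_le_inf_right _ inf_le_right).trans (c.sub K hK hn))
      (inf_le_left.trans inf_le_left)))

theorem normal_le (hN : N.Normal) (h : N ≤ Cm V ((Dl H x ⊓ V) ⊔ ⁅V, zpowers x⁆)) : V ≤ 𝐂(N) := by
  have := c.nV
  rcases c.min ⁅V, N⁆ inferInstance (comm_le_left (c.norm _)) with h1 | h1
  · exact le_cent_iff_comm_eq_bot.2 h1
  · exact absurd (h1.ge.trans ((le_Cm c.W_le).1 h)) c.not_le_W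

theorem exists_El : ∃ h ∈ H, V ⊔ El x h = H := by
  by_contra hh
  push Not at hh
  refine c.nc (c.normal_le c.normal (c.comm.ge.trans (comm_le_of_El fun h hm => ?_)))
  exact le_sup_right.trans (c.le_of_lt le_sup_left (lt_of_le_of_ne
    (sup_le c.le ((El_le hm).trans (comm_le_left c.nH))) (hh h hm)) (le_norm_sup (c.norm _) norm_El))

variable (hh : h ∈ H) (hs : V ⊔ El x h = H)
include hh hs

theorem inf_El : V ⊓ El x h = ⊥ := by
  refine (c.min _ (c.normal_of (hs.ge.trans (sup_le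
    (le_norm_of_le_cent (le_cent_of_comm c.el.1 le_rfl inf_le_left))
    (le_norm_inf (c.norm _) Subgroup.le_normalizer))) (le_norm_inf (c.norm _) norm_El))
    inf_le_left).resolve_right fun h1 => c.nle ?_
  rw [sup_eq_right.2 (inf_eq_left.1 h1)] at hs
  exact (inf_le_inf_right _ hs.ge).trans (le_Dl hh)

theorem El_inf_cent : El x h ⊓ 𝐂(V) = ⊥ :=
  c.eq_bot (c.normal_of (hs.ge.trans (sup_le (le_norm_of_le_cent (le_cent_symm inf_le_right))
    (le_norm_inf_cent Subgroup.le_normalizer (c.norm _)))) (le_norm_inf_cent norm_El (c.norm _)))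
    (inf_le_left.trans (le_sup_right.trans hs.le))
    ((inf_le_inf_right _ inf_le_left).trans (le_Dl hh))

theorem eq_bot_of (hX : X ≤ El x h) (hn : zpowers x ≤ 𝐍(X)) (hd : ⁅H, H⁆ ≤ V ⊔ X)
    (hne : V ⊔ X ≠ H) : X = ⊥ := by
  have h1 : V ⊔ X ≤ H := (sup_le_sup_left hX V).trans hs.le
  have h2 := le_norm_sup (c.norm _) hn
  rw [← le_bot_iff, ← c.El_inf_cent hh hs]
  exact le_inf hX (le_sup_right.trans (le_cent_symm (c.normal_le
    (c.normal_of (le_norm_of_der_le hd h1) h2) (c.le_of_lt le_sup_left (lt_of_le_of_ne h1 hne) h2))))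

omit hh in
theorem der_le_sup : ⁅H, H⁆ ≤ V ⊔ ⁅El x h, El x h⁆ := by
  conv_lhs => rw [← hs]
  exact der_sup_le_sup_der (c.norm _)

theorem der_El : ⁅El x h, El x h⁆ = ⊥ := by
  refine c.eq_bot_of hh hs (der_le _) (le_norm_comm norm_El norm_El) (c.der_le_sup hs) fun h1 => ?_
  have h2 : El x h = ⊥ := by
    by_contra h3
    refine (Amb.der_lt (solvable_mono c.solv (le_sup_right.trans hs.le)) h3).ne ?_
    have h4 := sup_inf_assoc_of_le' (B := V) (der_le (El x h)) (c.norm _)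
    rw [sup_comm, h1, c.inf_El hh hs, sup_bot_eq, inf_eq_right.2 (le_sup_right.trans hs.le)] at h4
    exact h4.symm
  rw [h2, sup_bot_eq] at hs
  exact c.nc (hs ▸ comm_le_cent c.el.1)

theorem der_le_V : ⁅H, H⁆ ≤ V := by simpa [c.der_El hh hs] using c.der_le_sup hs

theorem not_dvd : ¬ q ∣ Nat.card (El x h) := by
  have := Fact.mk c.qp
  have h1 : El x h ≤ H := le_sup_right.trans hs.le
  obtain ⟨Q, hQ, hn⟩ := coprime_sylow_exists q norm_El (c.cop' h1) (Or.inr (solvable_mono c.solv h1))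
  refine fun hd => sylow_ne_bot hQ hd (c.eq_bot_of hh hs hQ.1 hn
    ((c.der_le_V hh hs).trans le_sup_left) fun h2 => c.not_isPGroup (q := q) ?_)
  rw [← h2]
  exact (Core.IsElementaryAbelian.isPGroup c.el).to_sup_of_normal_left' (sylow_isPGroup hQ) (c.norm _)

theorem hall : IsPiHallOf {q}ᶜ (El x h) H := by
  have := Fact.mk c.qp
  have h1 := hall_right_of_sup (π := {q}ᶜ) (N := V) (by
    rw [compl_compl]
    exact isPGroup_iff_pi.1 (Core.IsElementaryAbelian.isPGroup c.el))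
    ((pi_compl_singleton c.qp).2 (c.not_dvd hh hs)) (c.norm _)
  rwa [hs] at h1

theorem card_V : Nat.card V = Nat.card ↥(V ⊓ 𝐂(zpowers x)) ^ p := by
  have := c.nV
  have := c.normal
  have h1 : El x h ≤ H := le_sup_right.trans hs.le
  have e : Nat.card (zpowers x) = p := by rw [Nat.card_zpowers, c.orderOf_eq]
  rw [← e]
  refine wielandt_ab c.qp c.el (c.norm _) (c.norm _) norm_El (e ▸ c.prime)
    ((c.der_El hh hs).le.trans bot_le) ?_ (c.not_dvd hh hs) ?_
  · refine (c.split h1 norm_El).ge.trans (sup_le le_rfl (le_trans ?_ bot_le))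
    rw [← c.inf_El hh hs]
    exact le_inf ((inf_le_inf_right _ h1).trans (c.cent_le_der.trans (c.der_le_V hh hs))) inf_le_left
  · rcases c.min (V ⊓ 𝐂(H)) inferInstance inf_le_left with h2 | h2
    · rw [← le_bot_iff, ← h2, ← hs]
      exact le_inf inf_le_left (le_cent_sup (le_cent_of_comm c.el.1 inf_le_left le_rfl) inf_le_right)
    · exact absurd (inf_eq_left.1 h2) c.nc

theorem le_sup_cent : V ≤ (V ⊓ 𝐂[h⁻¹ * x * h]) ⊔ (V ⊓ 𝐂(zpowers x)) := by
  intro v hv
  have hm := H.mul_mem hh (c.le hv)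
  have hs' : V ⊔ El x (h * v) = H := by
    refine le_antisymm (sup_le c.le ((El_le hm).trans (comm_le_left c.nH))) (hs.ge.trans
      (sup_le le_sup_left (El_le_iff.2 fun i => ?_)))
    rw [show ⁅h⁻¹, x ^ i⁆ = v * ⁅(h * v)⁻¹, x ^ i⁆ * (x ^ i * v * (x ^ i)⁻¹)⁻¹ by
      simp only [commutatorElement_def]; group]
    exact mul_mem (mul_mem (Subgroup.mem_sup_left hv) (Subgroup.mem_sup_right (mem_El _ _ i)))
      (inv_mem (Subgroup.mem_sup_left (c.nV.conj_mem v hv _)))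
  obtain ⟨d, hd, e⟩ := coprime_hall_trans c.nH (c.cop' le_rfl) c.solv (c.hall hh hs) norm_El
    (c.hall hm hs') norm_El
  have hdV : d ∈ V := c.der_le_V hh hs (c.cent_le_der hd)
  have h1 := mem_El x (h * v) 1
  rw [e, Core.mem_conj_smul_iff] at h1
  have h2 := (El x h).mul_mem h1 ((El x h).inv_mem (mem_El x h 1))
  rw [show d⁻¹ * ⁅(h * v)⁻¹, x ^ 1⁆ * d * ⁅h⁻¹, x ^ 1⁆⁻¹ =
    (v * d)⁻¹ * (h⁻¹ * x * h) * v * (x⁻¹ * d) * x * (h⁻¹ * x * h)⁻¹ by
      simp only [commutatorElement_def]; group,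
    mem_cent.1 hd.2 x⁻¹ (inv_mem (Subgroup.mem_zpowers x)),
    show (v * d)⁻¹ * (h⁻¹ * x * h) * v * (d * x⁻¹) * x * (h⁻¹ * x * h)⁻¹ =
      (v * d)⁻¹ * (h⁻¹ * x * h * (v * d) * (h⁻¹ * x * h)⁻¹) by group] at h2
  have h3 : _ ∈ V ⊓ El x h := ⟨V.mul_mem (V.inv_mem (V.mul_mem hv hdV))
    (c.nV.conj_mem _ (V.mul_mem hv hdV) _), h2⟩
  rw [c.inf_El hh hs, Subgroup.mem_bot, inv_mul_eq_one, eq_mul_inv_iff_mul_eq] at h3
  rw [← mul_inv_cancel_right v d]
  exact mul_mem (Subgroup.mem_sup_left ⟨V.mul_mem hv hdV, mem_cent1.2 h3⟩)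
    (inv_mem (Subgroup.mem_sup_right ⟨hdV, hd.2⟩))

omit hh hs in
theorem false : False := by
  obtain ⟨h, hh, hs⟩ := c.exists_El
  have h1 : Nat.card ↥(V ⊓ 𝐂[h⁻¹ * x * h]) ≤ Nat.card ↥(V ⊓ 𝐂(zpowers x)) := by
    rw [← Subgroup.card_map_of_injective (f := (MulAut.conj h).toMonoidHom)
      (MulAut.conj h).injective]
    refine Subgroup.card_le_of_le ?_
    rintro _ ⟨v, hv, rfl⟩
    refine ⟨c.nV.conj_mem v hv.1 h, ?_⟩
    rw [cent_zpowers]
    refine mem_cent1.2 ?_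
    change h * v * h⁻¹ * x = x * (h * v * h⁻¹)
    calc _ = h * (v * (h⁻¹ * x * h)) * h⁻¹ := by group
      _ = _ := by rw [mem_cent1.1 hv.2]; group
  have h2 := (Subgroup.card_le_of_le (c.le_sup_cent hh hs)).trans (Nat.le_of_dvd
    (Nat.mul_pos Nat.card_pos Nat.card_pos) (Core.card_sup_dvd
      (le_norm_of_le_cent (le_cent_of_comm c.el.1 inf_le_left inf_le_left))))
  have h3 := c.card_V hh hs
  have h4 := (Subgroup.one_lt_card_iff_ne_bot V).2 c.ne
  have h5 : 3 ≤ p := by have := c.prime.two_le; have := c.odd; omega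
  generalize Nat.card ↥(V ⊓ 𝐂(zpowers x)) = n at h1 h2 h3
  have h6 : 1 < n := by
    rcases n with _ | _ | n
    · rw [h3, zero_pow (by omega)] at h4; omega
    · rw [h3] at h4; simp at h4
    · omega
  have h7 := Nat.pow_lt_pow_right h6 (show 2 < p by omega)
  have h8 := Nat.mul_le_mul_right n h1
  rw [pow_two] at h7
  omega

end CxB

theorem Cx.false (c : Cx p H x) : False := by
  have := c.normal
  obtain ⟨V, q, h1, h2, h3, h4, h5, h6⟩ :=
    Core.exists_minimal_normal_elementary_le H c.solv c.ne_bot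
  by_cases h : V ≤ 𝐂(H)
  · have := Fact.mk h4
    exact c.not_isPGroup (c.isPGroup_of_central (Core.IsElementaryAbelian.isPGroup h5) h2
      (le_inf h3 h))
  · exact CxB.false ⟨c, h4, h1, h2, h3, h5, h6, h⟩

end Cfsg.Agent.BW
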