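import Mathlib
import Cfsg.Agent.BW.G

/-!
# Fixed points of an automorphism of odd prime order on a solvable group, IV
-/

set_option autoImplicit false

namespace Cfsg.Agent.BW

open Cfsg.Agent.BG Cfsg.Agent.BG.Amb Cfsg.Agent.H23.HH
open scoped commutatorElement Pointwise
open Subgroup (zpowers center)

universe u

/-- The statement for a fixed order. -/
def FixGen (p n : ℕ) : Prop :=
  ∀ (G : Type u) [Group G] [Finite G] (H : Subgroup G) (x : G), Nat.card H = n → x ^ p = 1 →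
    zpowers x ≤ 𝐍(H) → Group.IsSolvable H → (Nat.card H).Coprime p →
    ⁅H, zpowers x⁆ ⊓ 𝐂(zpowers x) ≤ Dl H x

theorem fixGen_top {p : ℕ} (hp : p.Prime) (h2 : p ≠ 2) {G : Type u} [Group G] [Finite G]
    {H : Subgroup G} {x : G} (ih : ∀ m < Nat.card H, FixGen.{u} p m) (hx : x ^ p = 1)
    (hn : zpowers x ≤ 𝐍(H)) (hs : Group.IsSolvable H) (hc : (Nat.card H).Coprime p)
    (ht : H ⊔ zpowers x = ⊤) : ⁅H, zpowers x⁆ ⊓ 𝐂(zpowers x) ≤ Dl H x := by
  have sub : ∀ K < H, zpowers x ≤ 𝐍(K) → ⁅K, zpowers x⁆ ⊓ 𝐂(zpowers x) ≤ Dl H x :=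
    fun K hK hKn => (ih _ (Core.card_lt_of_lt hK) G K x rfl hx hKn (solvable_mono hs hK.le)
      (hc.coprime_dvd_left (Subgroup.card_dvd_of_le hK.le))).trans (Dl_mono hK.le)
  rcases (comm_le_left hn).eq_or_lt with h | h
  swap
  · have := sub _ h (Subgroup.normalizer_commutator_ge_right _ _)
    rwa [coprime_comm_comm hn (hc.coprime_dvd_right
      (Nat.card_zpowers x ▸ orderOf_dvd_of_pow_eq_one hx)) (Or.inr hs)] at this
  rw [h]
  by_contra hne
  refine Cx.false (p := p) ⟨hp, h2, hx, normal_of_top_le (ht ▸ sup_le Subgroup.le_normalizer hn),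
    hs, hc, ht, h, hne, sub, fun V hV h1 h3 => ?_⟩
  set π := QuotientGroup.mk' V
  have h4 : Nat.card (H.map π) < Nat.card H := by
    rw [← Subgroup.relIndex_ker, QuotientGroup.ker_mk', ← Core.card_mul_relIndex h3]
    exact lt_mul_left (Nat.pos_of_ne_zero Subgroup.index_ne_zero_of_finite)
      (V.one_lt_card_iff_ne_bot.2 h1)
  have h5 := ih _ h4 (G ⧸ V) (H.map π) (π x) rfl (by rw [← map_pow, hx, map_one])
    (by
      rw [← MonoidHom.map_zpowers]
      exact (Subgroup.map_mono hn).trans (Subgroup.le_normalizer_map π))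
    (Core.solvable_map hs π) (hc.coprime_dvd_left (Subgroup.card_map_dvd _ _))
  rw [← MonoidHom.map_zpowers, ← Subgroup.map_commutator, h, MonoidHom.map_zpowers] at h5
  have h6 := (le_inf (Subgroup.map_mono inf_le_left) ((Subgroup.map_mono inf_le_right).trans
    (map_cent_le π))).trans (h5.trans (le_map_Dl π hn (hc.coprime_dvd_right
      (Nat.card_zpowers x ▸ orderOf_dvd_of_pow_eq_one hx))))
  rw [Subgroup.map_le_iff_le_comap, Subgroup.comap_map_eq, QuotientGroup.ker_mk'] at h6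
  rw [← sup_inf_assoc_of_le' ((Dl_le hn).trans inf_le_right) Subgroup.le_normalizer_of_normal]
  exact le_inf h6 inf_le_right

theorem fixGen {p : ℕ} (hp : p.Prime) (h2 : p ≠ 2) (n : ℕ) : FixGen.{u} p n := by
  induction n using Nat.strong_induction_on with
  | _ n ih =>
  intro G _ _ H x e hx hn hs hc
  set T := H ⊔ zpowers x
  have hH : H ≤ T := le_sup_left
  have hxT : x ∈ T := Subgroup.mem_sup_right (Subgroup.mem_zpowers x)
  have e1 := map_subtype_subgroupOf hH
  have e2 : (zpowers (⟨x, hxT⟩ : T)).map T.subtype = zpowers x := MonoidHom.map_zpowers _ _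
  have e3 : zpowers (⟨x, hxT⟩ : T) = (zpowers x).subgroupOf T := by
    rw [← e2]; exact (Subgroup.comap_map_eq_self_of_injective T.subtype_injective _).symm
  have e4 := Core.card_subgroupOf_of_le hH
  have hn' : zpowers (⟨x, hxT⟩ : T) ≤ 𝐍(H.subgroupOf T) :=
    e3 ▸ Core.subgroupOf_le_normalizer_subgroupOf hn _
  have hx' : (⟨x, hxT⟩ : T) ^ p = 1 := Subtype.ext hx
  have h1 := fixGen_top hp h2 (H := H.subgroupOf T) (x := ⟨x, hxT⟩) (by rwa [e4, e]) hx' hn'
    (Core.solvable_subgroupOf hs) (by rwa [e4]) (by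
      apply Subgroup.map_injective T.subtype_injective
      rw [Subgroup.map_sup, e1, e2, ← MonoidHom.range_eq_map, Subgroup.range_subtype])
  have h3 := (Subgroup.map_mono h1).trans (map_Dl_le T.subtype)
  rwa [← map_inf_cent _ (Subgroup.normalizer_commutator_ge_right _ _)
    (((e4 ▸ hc).coprime_dvd_left (Subgroup.card_dvd_of_le (comm_le_left hn'))).coprime_dvd_right
      ((Nat.card_zpowers _).dvd.trans (orderOf_dvd_of_pow_eq_one hx')))
    (Or.inl (solvable_of_comm inferInstance)), Subgroup.map_commutator, e1, e2] at h3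

open SemidirectProduct FGS in
theorem fixed_le {H : Type*} [Group H] [Finite H] (hs : Group.IsSolvable H) {p : ℕ} (hp : p.Prime)
    (h2 : p ≠ 2) (hc : (Nat.card H).Coprime p) (x : MulAut H) (hx : orderOf x = p) :
    Subgroup.closure {c : H | ∃ h : H, ∃ i : ℕ, c = h⁻¹ * (x ^ i) h} ⊓
        (x : H →* H).eqLocus (MonoidHom.id H) ≤
      ⨆ h : H, Subgroup.closure {c : H | ∃ i : ℕ, c = h⁻¹ * (x ^ i) h} ⊓
        (x : H →* H).eqLocus (MonoidHom.id H) := by
  have h1 := fixGen hp h2 _ (Ext x) (sdG _) (extx x) rfl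
    (by rw [← hx, ← orderOf_extx, pow_orderOf_eq_one]) Subgroup.le_normalizer_of_normal
    (solvable_sdG _ hs) (by rwa [card_sdG])
  have e : ∀ (h : H) (i : ℕ), (inl (h⁻¹ * (x ^ i) h) : Ext x) = ⁅(inl h : Ext x)⁻¹, extx x ^ i⁆ :=
    fun h i => by
      rw [commutatorElement_def, inv_inv, mul_assoc, mul_assoc, ← mul_assoc (extx x ^ i), extx,
        ← map_pow, sd_conj, map_mul, map_inv]
      rfl
  have e2 : ∀ c : H, (inl c : Ext x) ∈ 𝐂(zpowers (extx x)) ↔ x c = c := fun c => by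
    rw [cent_zpowers, extx, inl_mem_centralizer_singleton_iff]; rfl
  rw [← map_inl_le_iff (φ := (zpowers x).subtype)]
  refine le_trans (le_inf ((Subgroup.map_mono inf_le_left).trans ?_) ?_) (h1.trans ?_)
  · rw [Subgroup.map_le_iff_le_comap, Subgroup.closure_le]
    rintro _ ⟨h, i, rfl⟩
    rw [SetLike.mem_coe, Subgroup.mem_comap, e]
    exact El_le (K := sdG _) ⟨h, rfl⟩ (mem_El _ _ i)
  · rintro _ ⟨c, hc, rfl⟩
    exact (e2 c).2 hc.2
  · refine iSup₂_le ?_
    rintro _ ⟨h, rfl⟩ y hy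
    have h3 : El (extx x) (inl h) ≤
        (Subgroup.closure {c : H | ∃ i : ℕ, c = h⁻¹ * (x ^ i) h}).map inl :=
      El_le_iff.2 fun i => ⟨_, Subgroup.subset_closure ⟨i, rfl⟩, e h i⟩
    obtain ⟨c, hc, rfl⟩ := h3 hy.1
    exact Subgroup.mem_map_of_mem _ (Subgroup.mem_iSup_of_mem h ⟨hc, (e2 c).1 hy.2⟩)

end Cfsg.Agent.BW
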